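import Mathlib
import Cfsg.Agent.Lib.Baer.Unique
import Cfsg.Agent.Lib.Char.Kazarin
import Cfsg.Agent.Lib.Basic.PCore
import Cfsg.Agent.Lib.Basic.JordanCover
import Cfsg.Agent.Lib.Coprime.SZ

/-!
# `q`-Baer groups: the structure theorem

All `q`-elements have classes of `p`-power size. If `p = q` a Sylow `q`-subgroup is a normal direct
factor; if `p ≠ q` it is abelian, and `O_p(G) Q` is normal.
-/

set_option autoImplicit false

namespace Cfsg.Agent.Lib.Baer.Structure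

open Subgroup Cfsg Cfsg.Agent.Lib.ClassSize.Basic Cfsg.Agent.Lib.ClassSize.Coprime
open Cfsg.Agent.Lib.Baer.Unique Cfsg.Agent.Lib.Basic.PCore
open scoped Pointwise

universe u

variable {G : Type u} [Group G] [Finite G] {q : ℕ} [hq : Fact q.Prime]

/-- The image of a `q`-element with commuting conjugates modulo `N` lies in `O_q(G/N)`. -/
theorem mem_pCore_quot {N : Subgroup G} [N.Normal] {x : G} (hx : QE q x)
    (hK : ∀ g h : G, (g * x * g⁻¹) * (h * x * h⁻¹) * (g * x * g⁻¹)⁻¹ * (h * x * h⁻¹)⁻¹ ∈ N) :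
    (QuotientGroup.mk x : G ⧸ N) ∈ pCore q (G ⧸ N) := by
  set φ : G →* G ⧸ N := QuotientGroup.mk' N with hφ
  set y : G ⧸ N := φ x with hy
  have hsurj : Function.Surjective φ := QuotientGroup.mk'_surjective N
  have hconj : ∀ u ∈ Group.conjugatesOfSet ({y} : Set (G ⧸ N)), ∃ g : G, u = φ (g * x * g⁻¹) := by
    intro u hu
    obtain ⟨w, hw, hwz⟩ := Group.mem_conjugatesOfSet_iff.mp hu
    obtain rfl : w = y := hw
    obtain ⟨c, rfl⟩ := isConj_iff.mp hwz
    obtain ⟨g, rfl⟩ := hsurj c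
    exact ⟨g, by simp [hy, map_mul]⟩
  have hcomm : ∀ u ∈ Group.conjugatesOfSet ({y} : Set (G ⧸ N)),
      ∀ v ∈ Group.conjugatesOfSet ({y} : Set (G ⧸ N)), u * v = v * u := by
    intro u hu v hv
    obtain ⟨g, rfl⟩ := hconj u hu
    obtain ⟨h, rfl⟩ := hconj v hv
    have h1 : φ ((g * x * g⁻¹) * (h * x * h⁻¹) * (g * x * g⁻¹)⁻¹ * (h * x * h⁻¹)⁻¹) = 1 :=
      (QuotientGroup.eq_one_iff _).2 (hK g h)
    have h2 : φ (g * x * g⁻¹) * φ (h * x * h⁻¹) * (φ (g * x * g⁻¹))⁻¹ * (φ (h * x * h⁻¹))⁻¹ = 1 := by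
      rw [← map_inv, ← map_inv, ← map_mul, ← map_mul, ← map_mul]
      exact h1
    have h3 := mul_inv_eq_one.mp h2
    exact mul_inv_eq_iff_eq_mul.mp h3
  obtain ⟨k, hk⟩ := (qe_iff hq.out).1 hx
  have hyk : y ^ q ^ k = 1 := by rw [hy, ← map_pow, hk, map_one]
  have hcommA := Subgroup.isMulCommutative_closure hcomm
  have hpow : ∀ z ∈ normalClosure ({y} : Set (G ⧸ N)), z ^ q ^ k = 1 := by
    intro z hz
    have hz' : z ∈ closure (Group.conjugatesOfSet ({y} : Set (G ⧸ N))) := hz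
    induction hz' using Subgroup.closure_induction with
    | mem u hu =>
      obtain ⟨w, hw, hwz⟩ := Group.mem_conjugatesOfSet_iff.mp hu
      obtain rfl : w = y := hw
      obtain ⟨c, rfl⟩ := isConj_iff.mp hwz
      rw [conj_pow, hyk]
      group
    | one => exact one_pow _
    | mul a b ha hb iha ihb =>
      have hab : a * b = b * a := congrArg Subtype.val (hcommA.is_comm.comm ⟨a, ha⟩ ⟨b, hb⟩)
      rw [(show Commute a b from hab).mul_pow, iha ha, ihb hb, one_mul]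
    | inv a ha iha =>
      rw [inv_pow, iha ha, inv_one]
  have hP : IsPGroup q (normalClosure ({y} : Set (G ⧸ N))) := by
    rintro ⟨z, hz⟩
    exact ⟨k, Subtype.ext (hpow z hz)⟩
  exact le_pCore normalClosure_normal hP (subset_normalClosure rfl)

section PEqQ

/-- All `q`-elements lie in `O_q(G)` if all their classes have `q`-power size. -/
theorem mem_pCore_self (h : ∀ x : G, QE q x → ∃ a : ℕ, cs x = q ^ a) {x : G} (hx : QE q x) :
    x ∈ pCore q G := by
  have h1 : (QuotientGroup.mk x : G ⧸ pCore q G) ∈ pCore q (G ⧸ pCore q G) :=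
    mem_pCore_quot hx (fun g k => Cfsg.Agent.Lib.Char.Kazarin.commutator_conj_mem_pCore q x (h x hx) g k)
  rw [pCore_quotient_eq_bot] at h1
  exact (QuotientGroup.eq_one_iff x).1 h1

theorem sylow_eq_pCore (h : ∀ x : G, QE q x → ∃ a : ℕ, cs x = q ^ a) (Q : Sylow q G) :
    (Q : Subgroup G) = pCore q G :=
  le_antisymm (fun _ hx => mem_pCore_self h (qe_of_mem_sylow Q hx)) (pCore_le_sylow Q)

theorem sylow_normal_of_self (h : ∀ x : G, QE q x → ∃ a : ℕ, cs x = q ^ a) (Q : Sylow q G) :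
    (Q : Subgroup G).Normal := by
  rw [sylow_eq_pCore h Q]
  infer_instance

/-- A subgroup of `cent x` of the order of a complement, if `Q` is a normal Sylow subgroup and the
class of `x` has `q`-power size. -/
theorem exists_complement_le_cent (Q : Sylow q G) (hn : (Q : Subgroup G).Normal) {x : G} {a : ℕ}
    (hcx : cs x = q ^ a) : ∃ H : Subgroup G, H ≤ cent x ∧ Nat.card H = (Q : Subgroup G).index := by
  haveI := hn
  have hcop : Nat.Coprime (cent x).index (Q : Subgroup G).index := by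
    rw [show (cent x).index = cs x from rfl, hcx]
    exact Nat.Coprime.pow_left _ ((Nat.Prime.coprime_iff_not_dvd hq.out).2 Q.not_dvd_index)
  have hsup : cent x ⊔ (Q : Subgroup G) = ⊤ := by
    rw [← Subgroup.index_eq_one]
    exact Nat.eq_one_of_dvd_coprimes hcop (Subgroup.index_dvd_of_le le_sup_left)
      (Subgroup.index_dvd_of_le le_sup_right)
  have hrel : (Q : Subgroup G).relIndex (cent x) = (Q : Subgroup G).index := by
    rw [← Subgroup.relIndex_sup_left, sup_comm, hsup, Subgroup.relIndex_top_right]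
  set N₁ : Subgroup (cent x) := (Q : Subgroup G).subgroupOf (cent x) with hN₁
  haveI : N₁.Normal := Subgroup.Normal.subgroupOf hn _
  have hidx : N₁.index = (Q : Subgroup G).index := hrel
  have hcop1 : Nat.Coprime (Nat.card N₁) N₁.index := by
    rw [hidx]
    have h1 : Nat.card N₁ ∣ Nat.card (Q : Subgroup G) := by
      have := Subgroup.card_comap_dvd_of_injective (Q : Subgroup G) (cent x).subtype
        (cent x).subtype_injective
      exact this
    exact Nat.Coprime.coprime_dvd_left h1 (Q.card_coprime_index)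
  obtain ⟨H₁, hH₁⟩ := Subgroup.exists_right_complement'_of_coprime hcop1
  refine ⟨H₁.map (cent x).subtype, ?_, ?_⟩
  · rintro _ ⟨u, _, rfl⟩
    exact u.2
  · rw [Nat.card_congr (H₁.equivMapOfInjective _ (cent x).subtype_injective).symm.toEquiv,
      ← hH₁.symm.index_eq_card, hidx]

/-- **The case `p = q`.** -/
theorem exists_normal_complement (h : ∀ x : G, QE q x → ∃ a : ℕ, cs x = q ^ a) (Q : Sylow q G) :
    ∃ N : Subgroup G, N.Normal ∧ N.IsComplement' (Q : Subgroup G) := by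
  have hn := sylow_normal_of_self h Q
  haveI := hn
  have hcop : Nat.Coprime (Nat.card (Q : Subgroup G)) (Q : Subgroup G).index :=
    Q.card_coprime_index
  obtain ⟨H, hH⟩ := Subgroup.exists_right_complement'_of_coprime hcop
  have hcard : Nat.card H = (Q : Subgroup G).index := (hH.symm.index_eq_card).symm
  haveI hsolv : Group.IsSolvable (Q : Subgroup G) := by
    haveI := Q.2.isNilpotent
    infer_instance
  -- every element of `Q` is `Q`-conjugate into the centralizer of `H`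
  have hkey : ∀ w : (Q : Subgroup G), ∃ u : (Q : Subgroup G),
      u * w * u⁻¹ ∈ (centralizer (H : Set G)).subgroupOf (Q : Subgroup G) := by
    intro w
    obtain ⟨a, ha⟩ := h w (qe_of_mem_sylow Q w.2)
    obtain ⟨H', hH'le, hH'c⟩ := exists_complement_le_cent Q hn ha
    obtain ⟨g, hg⟩ := Cfsg.Agent.Lib.Coprime.SZ.conj_of_solvable_normal (Q : Subgroup G) hcop H' H
      hH'c hcard
    -- `g = h * u`
    have hsup : H ⊔ (Q : Subgroup G) = ⊤ := hH.symm.sup_eq_top
    have hmem : g ∈ H ⊔ (Q : Subgroup G) := by rw [hsup]; trivial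
    obtain ⟨h₁, hh₁, u, hu, rfl⟩ := Subgroup.mem_sup_of_normal_right.1 hmem
    refine ⟨⟨u, hu⟩, ?_⟩
    rw [Subgroup.mem_subgroupOf, Subgroup.mem_centralizer_iff]
    intro t ht
    -- `t` is the conjugate of an element of `H'`
    have ht' : h₁ * t * h₁⁻¹ ∈ H := H.mul_mem (H.mul_mem hh₁ ht) (H.inv_mem hh₁)
    rw [← hg, Subgroup.mem_pointwise_smul_iff_inv_smul_mem] at ht'
    simp only [MulAut.smul_def, MulAut.conj_inv_apply] at ht'
    have h2 := hH'le ht'
    rw [mem_cent_iff] at h2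
    set s := (h₁ * u)⁻¹ * (h₁ * t * h₁⁻¹) * (h₁ * u) with hs
    have hs2 : s = u⁻¹ * t * u := by rw [hs]; group
    rw [hs2] at h2
    show t * (u * (w : G) * u⁻¹) = (u * (w : G) * u⁻¹) * t
    calc t * (u * (w : G) * u⁻¹) = u * ((u⁻¹ * t * u) * (w : G)) * u⁻¹ := by group
      _ = u * ((w : G) * (u⁻¹ * t * u)) * u⁻¹ := by rw [h2]
      _ = _ := by group
  have htop := Cfsg.Agent.Lib.Basic.JordanCover.eq_top_of_forall_conj_mem _ hkey
  have hcomm : ∀ u ∈ (Q : Subgroup G), ∀ t ∈ H, t * u = u * t := by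
    intro u hu t ht
    have h1 : (⟨u, hu⟩ : (Q : Subgroup G)) ∈ (centralizer (H : Set G)).subgroupOf (Q : Subgroup G) := by
      rw [htop]; trivial
    rw [Subgroup.mem_subgroupOf, Subgroup.mem_centralizer_iff] at h1
    exact h1 t ht
  refine ⟨H, ⟨fun n hn' g => ?_⟩, hH.symm⟩
  have hsup : (Q : Subgroup G) ⊔ H = ⊤ := hH.sup_eq_top
  have hmem : g ∈ (Q : Subgroup G) ⊔ H := by rw [hsup]; trivial
  obtain ⟨u, hu, t, ht, rfl⟩ := Subgroup.mem_sup_of_normal_left.1 hmem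
  have h1 : t * n * t⁻¹ ∈ H := H.mul_mem (H.mul_mem ht hn') (H.inv_mem ht)
  have h2 := hcomm u hu _ h1
  have h3 : u * t * n * (u * t)⁻¹ = (u * (t * n * t⁻¹)) * u⁻¹ := by group
  rw [h3, ← h2]
  simpa using h1

end PEqQ

section PNeQ

variable {p : ℕ} [hp : Fact p.Prime]

theorem mem_pCore_quot_p (h : ∀ x : G, QE q x → ∃ a : ℕ, cs x = p ^ a) {x : G} (hx : QE q x) :
    (QuotientGroup.mk x : G ⧸ pCore p G) ∈ pCore q (G ⧸ pCore p G) :=
  mem_pCore_quot hx (fun g k => Cfsg.Agent.Lib.Char.Kazarin.commutator_conj_mem_pCore p x (h x hx) g k)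

theorem map_sylow_eq (h : ∀ x : G, QE q x → ∃ a : ℕ, cs x = p ^ a) (Q : Sylow q G) :
    (Q : Subgroup G).map (QuotientGroup.mk' (pCore p G)) = pCore q (G ⧸ pCore p G) := by
  apply le_antisymm
  · rintro _ ⟨x, hx, rfl⟩
    exact mem_pCore_quot_p h (qe_of_mem_sylow Q hx)
  · have hs : Function.Surjective (QuotientGroup.mk' (pCore p G)) := QuotientGroup.mk'_surjective _
    have := pCore_le_sylow (Q.mapSurjective hs)
    exact this

theorem sup_normal (h : ∀ x : G, QE q x → ∃ a : ℕ, cs x = p ^ a) (Q : Sylow q G) :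
    (pCore p G ⊔ (Q : Subgroup G)).Normal := by
  have h1 : (pCore q (G ⧸ pCore p G)).comap (QuotientGroup.mk' (pCore p G)) =
      pCore p G ⊔ (Q : Subgroup G) := by
    rw [← map_sylow_eq h Q, Subgroup.comap_map_eq, QuotientGroup.ker_mk', sup_comm]
  rw [← h1]
  exact Subgroup.Normal.comap inferInstance _

theorem inf_pCore_eq_bot (hpq : p ≠ q) (Q : Sylow q G) : pCore p G ⊓ (Q : Subgroup G) = ⊥ :=
  (IsPGroup.disjoint_of_ne p q hpq _ _ (pCore_isPGroup p) Q.2).eq_bot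

/-- **The case `p ≠ q`: `Q` is abelian.** -/
theorem sylow_abelian (h : ∀ x : G, QE q x → ∃ a : ℕ, cs x = p ^ a) (hpq : p ≠ q) (Q : Sylow q G) :
    IsMulCommutative (Q : Subgroup G) := by
  refine ⟨⟨fun a b => Subtype.ext ?_⟩⟩
  obtain ⟨a, ha⟩ := a
  obtain ⟨b, hb⟩ := b
  show a * b = b * a
  obtain ⟨e, he⟩ := h a (qe_of_mem_sylow Q ha)
  have hnd : ¬ q ∣ cs a := by
    rw [he]
    exact not_dvd_pow_of_ne hq.out hp.out hpq.symm
  obtain ⟨Q₁, hQ₁⟩ := exists_sylow_le_cent hnd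
  have hm : (QuotientGroup.mk' (pCore p G) b) ∈ (Q₁ : Subgroup G).map (QuotientGroup.mk' (pCore p G)) := by
    rw [map_sylow_eq h Q₁, ← map_sylow_eq h Q]
    exact ⟨b, hb, rfl⟩
  obtain ⟨b₁, hb₁, hb₁e⟩ := hm
  have ho : b₁⁻¹ * b ∈ pCore p G := QuotientGroup.eq.1 hb₁e
  set o := b₁⁻¹ * b with ho'
  have hb2 : b = b₁ * o := by rw [ho']; group
  have hab₁ : a * b₁ = b₁ * a := mem_cent_iff.1 (hQ₁ hb₁)
  have hmemO : a * b * a⁻¹ * b⁻¹ ∈ pCore p G := by
    have h1 : a * b * a⁻¹ * b⁻¹ = b₁ * (a * o * a⁻¹ * o⁻¹) * b₁⁻¹ := by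
      rw [hb2]
      calc a * (b₁ * o) * a⁻¹ * (b₁ * o)⁻¹ = (a * b₁) * o * a⁻¹ * o⁻¹ * b₁⁻¹ := by group
        _ = (b₁ * a) * o * a⁻¹ * o⁻¹ * b₁⁻¹ := by rw [hab₁]
        _ = _ := by group
    rw [h1]
    have h2 : a * o * a⁻¹ ∈ pCore p G := (inferInstance : (pCore p G).Normal).conj_mem _ ho _
    have h3 : a * o * a⁻¹ * o⁻¹ ∈ pCore p G := (pCore p G).mul_mem h2 ((pCore p G).inv_mem ho)
    exact (inferInstance : (pCore p G).Normal).conj_mem _ h3 _
  have hmemQ : a * b * a⁻¹ * b⁻¹ ∈ (Q : Subgroup G) :=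
    Q.mul_mem (Q.mul_mem (Q.mul_mem ha hb) (Q.inv_mem ha)) (Q.inv_mem hb)
  have h1 : a * b * a⁻¹ * b⁻¹ ∈ pCore p G ⊓ (Q : Subgroup G) := ⟨hmemO, hmemQ⟩
  rw [inf_pCore_eq_bot hpq Q, Subgroup.mem_bot] at h1
  have h2 := mul_inv_eq_one.1 h1
  exact mul_inv_eq_iff_eq_mul.1 h2

/-- The `q`-length one statement, case `p ≠ q`. -/
theorem qlength_of_ne (hpq : p ≠ q) (Q : Sylow q G) (hn : (pCore p G ⊔ (Q : Subgroup G)).Normal) :
    ∃ K L : Subgroup G, K.Normal ∧ L.Normal ∧ K ≤ L ∧ (Nat.card K).Coprime q ∧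
      (∃ m : ℕ, K.relIndex L = q ^ m) ∧ L.index.Coprime q := by
  refine ⟨pCore p G, pCore p G ⊔ Q, inferInstance, hn, le_sup_left, ?_, ?_, ?_⟩
  · obtain ⟨n, hn'⟩ := IsPGroup.iff_card.1 (pCore_isPGroup (G := G) p)
    rw [hn']
    exact Nat.Coprime.pow_left _ ((Nat.coprime_primes hp.out hq.out).2 hpq)
  · have h1 : (pCore p G).relIndex (pCore p G ⊔ (Q : Subgroup G)) =
        (pCore p G).relIndex (Q : Subgroup G) := by
      rw [sup_comm]
      exact Subgroup.relIndex_sup_right _ _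
    rw [h1]
    obtain ⟨n, hn'⟩ := IsPGroup.iff_card.1 Q.2
    have h2 : (pCore p G).relIndex (Q : Subgroup G) ∣ q ^ n := by
      rw [← hn']
      exact Subgroup.relIndex_dvd_card _ _
    obtain ⟨m, -, hm⟩ := (Nat.dvd_prime_pow hq.out).1 h2
    exact ⟨m, hm⟩
  · have h1 : (pCore p G ⊔ (Q : Subgroup G)).index ∣ (Q : Subgroup G).index :=
      Subgroup.index_dvd_of_le le_sup_right
    refine Nat.Coprime.coprime_dvd_left h1 ?_
    exact ((Nat.Prime.coprime_iff_not_dvd hq.out).2 Q.not_dvd_index).symm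

end PNeQ

/-- The `q`-length one statement, case of a normal Sylow subgroup. -/
theorem qlength_of_normal (Q : Sylow q G) (hn : (Q : Subgroup G).Normal) :
    ∃ K L : Subgroup G, K.Normal ∧ L.Normal ∧ K ≤ L ∧ (Nat.card K).Coprime q ∧
      (∃ m : ℕ, K.relIndex L = q ^ m) ∧ L.index.Coprime q := by
  refine ⟨⊥, Q, inferInstance, hn, bot_le, ?_, ?_, ?_⟩
  · simp
  · obtain ⟨n, hn'⟩ := IsPGroup.iff_card.1 Q.2
    exact ⟨n, by rw [Subgroup.relIndex_bot_left, hn']⟩
  · exact ((Nat.Prime.coprime_iff_not_dvd hq.out).2 Q.not_dvd_index).symm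

end Cfsg.Agent.Lib.Baer.Structure
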