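import Mathlib
import Cfsg.Agent.Lib.Baer.TwoOrbit2
import Cfsg.Agent.Lib.Baer.Structure
import Cfsg.Agent.Lib.Solvable.PSeries

/-!
# Coprime actions with orbits of prime power size

A group of order prime to `q` acting faithfully on an abelian `q`-group with orbits that are orbits
of a `p`-subgroup is solvable, given the odd order theorem.
-/

set_option autoImplicit false

namespace Cfsg.Agent.Lib.Baer.Star

open Subgroup Cfsg Cfsg.Agent.Lib.Baer.TwoOrbit
open Cfsg.Agent.Lib.ClassSize.Basic Cfsg.Agent.Lib.ClassSize.Coprime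
open Cfsg.Agent.Lib.Baer.Unique Cfsg.Agent.Lib.Basic.PCore

universe u

/-- The orbit theorem, given the odd order theorem. -/
theorem star (hFT : ∀ (X : Type u) [Group X] [Finite X], Odd (Nat.card X) → Group.IsSolvable X)
    {Γ V : Type u} [Group Γ] [Finite Γ] [CommGroup V] [Finite V] {p q : ℕ} [hp : Fact p.Prime]
    [hq : Fact q.Prime] (ρ : Γ →* MulAut V) (hinj : Function.Injective ρ) (hV : IsPGroup q V)
    (hcop : (Nat.card Γ).Coprime q) (P : Subgroup Γ) (hP : IsPGroup p P)
    (hOE : ∀ g v, ∃ u ∈ P, ρ g v = ρ u v) : Group.IsSolvable Γ := by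
  classical
  haveI : Fact (Nat.Prime 2) := ⟨Nat.prime_two⟩
  by_cases hq2 : q = 2
  · subst hq2
    apply hFT
    exact Nat.coprime_two_right.1 hcop
  by_cases hp2 : p = 2
  · subst hp2
    have hS := two_main (q := q) hq2 (Nat.card V) V rfl hV
    have hgood := hS.gen ρ hcop P hP hOE
    have h2 : IsPGroup 2 Γ := by
      intro g
      obtain ⟨e, he⟩ := hgood g
      refine ⟨e, hinj ?_⟩
      rw [map_pow, he, map_one]
    haveI := h2.isNilpotent
    infer_instance
  -- both odd: no involutions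
  apply hFT
  by_contra hodd
  rw [Nat.not_odd_iff_even, even_iff_two_dvd] at hodd
  obtain ⟨g, hg⟩ := exists_prime_orderOf_dvd_card' 2 hodd
  have hg2 : g * g = 1 := by rw [← pow_two, ← hg, pow_orderOf_eq_one]
  have hρg : ρ g ≠ 1 := by
    intro h
    have h1 : g = 1 := hinj (by rw [h, map_one])
    rw [h1, orderOf_one] at hg
    omega
  obtain ⟨w, hw⟩ : ∃ w, ρ g w ≠ w := by
    by_contra hall
    push Not at hall
    exact hρg (by ext v; exact hall v)
  set v := w⁻¹ * ρ g w with hv
  have hv1 : v ≠ 1 := by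
    intro h
    apply hw
    rw [hv, inv_mul_eq_one] at h
    exact h.symm
  have hgg : ∀ x, ρ g (ρ g x) = x := by
    intro x
    have h1 : ρ g * ρ g = 1 := by rw [← map_mul, hg2, map_one]
    have := congrArg (fun a : MulAut V => a x) h1
    simpa using this
  have hgv : ρ g v = v⁻¹ := by
    rw [hv, map_mul, map_inv, hgg, mul_inv_rev, inv_inv]
  obtain ⟨u, hu, huv⟩ := hOE g v
  obtain ⟨k, hk⟩ := hP ⟨u, hu⟩
  have huk : u ^ p ^ k = 1 := congrArg Subtype.val hk
  have hu2 : ρ u (ρ u v) = v := by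
    rw [← huv, hgv, map_inv, ← huv, hgv, inv_inv]
  have hpodd : Odd (p ^ k) := (hp.out.odd_of_ne_two hp2).pow
  obtain ⟨t, ht⟩ := hpodd
  have ha : ∀ n : ℕ, (ρ u ^ (2 * n)) v = v := by
    intro n
    induction n with
    | zero => simp
    | succ n ih =>
      rw [show 2 * (n + 1) = 2 * n + 1 + 1 by ring, pow_succ, pow_succ, MulAut.mul_apply,
        MulAut.mul_apply, hu2, ih]
  have hb : ρ u ^ (2 * t + 1) = 1 := by
    rw [← ht, ← map_pow, huk, map_one]
  have h5 : ρ u v = v := by
    have h6 := congrArg (fun a : MulAut V => a v) hb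
    rw [pow_succ', MulAut.mul_apply, ha, MulAut.one_apply] at h6
    exact h6
  have h7 : v * v = 1 := by
    have h8 : v⁻¹ = v := by rw [← hgv, huv, h5]
    nth_rewrite 1 [← h8]
    exact inv_mul_cancel v
  obtain ⟨k', hk'⟩ := hV v
  have h9 : orderOf v ∣ 2 := orderOf_dvd_of_pow_eq_one (by rw [pow_two]; exact h7)
  have h10 : orderOf v ∣ q ^ k' := orderOf_dvd_of_pow_eq_one hk'
  have h11 : Nat.Coprime 2 (q ^ k') :=
    Nat.Coprime.pow_right k' ((Nat.coprime_primes Nat.prime_two hq.out).2 (Ne.symm hq2))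
  exact hv1 (orderOf_eq_one_iff.1 (Nat.eq_one_of_dvd_coprimes h11 h9 h10))

/-- A group with a normal abelian Sylow `q`-subgroup, trivial `O_{q'}`, and classes of `q`-elements
of `p`-power size, is solvable. -/
theorem solvable_of_abelian_sylow
    (hFT : ∀ (X : Type u) [Group X] [Finite X], Odd (Nat.card X) → Group.IsSolvable X)
    {X : Type u} [Group X] [Finite X] {p q : ℕ} [hp : Fact p.Prime] [hq : Fact q.Prime] (hpq : p ≠ q)
    (V : Subgroup X) (hVn : V.Normal) (hVab : IsMulCommutative V) (hVq : IsPGroup q V)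
    (hidx : ¬ q ∣ V.index) (hcore : pPrimeCore q X = ⊥) (hcs : ∀ v ∈ V, ∃ a : ℕ, cs v = p ^ a) :
    Group.IsSolvable X := by
  classical
  haveI := hVn
  obtain ⟨n, hn⟩ := IsPGroup.iff_card.1 hVq
  have hidxc : V.index.Coprime q := ((Nat.Prime.coprime_iff_not_dvd hq.out).2 hidx).symm
  have hcopV : Nat.Coprime (Nat.card V) V.index := by
    rw [hn]
    exact (Nat.Coprime.pow_right n hidxc).symm
  obtain ⟨C, hC⟩ := Subgroup.exists_right_complement'_of_coprime hcopV
  have hcardC : Nat.card C = V.index := (hC.symm.index_eq_card).symm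
  have hcopC : (Nat.card C).Coprime q := by rw [hcardC]; exact hidxc
  letI hcg : CommGroup V := { (inferInstance : Group V) with mul_comm := hVab.is_comm.comm }
  let ρ : C →* MulAut V := (MulAut.conjNormal (H := V)).comp C.subtype
  have hρ : ∀ (c : C) (v : V), ((ρ c v : V) : X) = (c : X) * v * (c : X)⁻¹ := fun _ _ => rfl
  have hsup : V ⊔ C = ⊤ := hC.sup_eq_top
  -- faithful
  have hinj : Function.Injective ρ := by
    rw [injective_iff_map_eq_one]
    intro c hc
    let D : Subgroup X := C ⊓ centralizer (V : Set X)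
    have hcomV : ∀ d ∈ D, ∀ v ∈ V, v * d = d * v := fun d hd v hv =>
      (Subgroup.mem_centralizer_iff.1 hd.2) v hv
    have hDn : D.Normal := by
      refine ⟨fun d hd g => ?_⟩
      have hg : g ∈ V ⊔ C := by rw [hsup]; trivial
      obtain ⟨v, hv, c', hc', rfl⟩ := Subgroup.mem_sup_of_normal_left.1 hg
      have hd' : c' * d * c'⁻¹ ∈ D := by
        refine ⟨C.mul_mem (C.mul_mem hc' hd.1) (C.inv_mem hc'), ?_⟩
        change _ ∈ centralizer (V : Set X)
        rw [Subgroup.mem_centralizer_iff]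
        intro w hw
        have h1 : c'⁻¹ * w * c'⁻¹⁻¹ ∈ V := hVn.conj_mem _ hw _
        have h2 := hcomV d hd _ h1
        simp only [inv_inv] at h2
        calc w * (c' * d * c'⁻¹) = c' * ((c'⁻¹ * w * c') * d) * c'⁻¹ := by group
          _ = c' * (d * (c'⁻¹ * w * c')) * c'⁻¹ := by rw [h2]
          _ = _ := by group
      have h3 := hcomV _ hd' v hv
      have h4 : v * c' * d * (v * c')⁻¹ = v * (c' * d * c'⁻¹) * v⁻¹ := by group
      rw [h4, h3]
      simpa using hd'
    have hDc : (Nat.card D).Coprime q :=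
      Nat.Coprime.coprime_dvd_left (Subgroup.card_dvd_of_le inf_le_left) hcopC
    have hDbot : D ≤ pPrimeCore q X := Cfsg.Agent.Lib.Basic.PCore.le_pPrimeCore hDn hDc
    rw [hcore] at hDbot
    have hcD : (c : X) ∈ D := by
      refine ⟨c.2, ?_⟩
      change _ ∈ centralizer (V : Set X)
      rw [Subgroup.mem_centralizer_iff]
      intro v hv
      have h1 : ((ρ c ⟨v, hv⟩ : V) : X) = v := by rw [hc]; rfl
      rw [hρ] at h1
      change (c : X) * v * (c : X)⁻¹ = v at h1
      rw [mul_inv_eq_iff_eq_mul] at h1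
      exact h1.symm
    exact Subtype.ext (hDbot hcD)
  -- the Sylow subgroup
  obtain ⟨P⟩ : Nonempty (Sylow p C) := inferInstance
  let P₀ : Subgroup X := (P : Subgroup C).map C.subtype
  have hP₀ : IsPGroup p P₀ := P.2.map C.subtype
  have hP₀idx : ¬ p ∣ P₀.index := by
    have h1 : P₀.index = (P : Subgroup C).index * C.index := Subgroup.index_map_subtype _
    have h2 : C.index = Nat.card V := hC.index_eq_card
    rw [h1, h2, hn]
    intro h3
    rcases (Nat.Prime.dvd_mul hp.out).1 h3 with h4 | h4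
    · exact P.not_dvd_index h4
    · exact hpq ((Nat.prime_dvd_prime_iff_eq hp.out hq.out).1 (hp.out.dvd_of_dvd_pow h4))
  have hOE : ∀ (c : C) (v : V), ∃ u ∈ (P : Subgroup C), ρ c v = ρ u v := by
    intro c v
    obtain ⟨a, ha⟩ := hcs v v.2
    have hcop : Nat.Coprime P₀.index (cs (v : X)) := by
      rw [ha]
      exact Nat.Coprime.pow_right _ ((Nat.Prime.coprime_iff_not_dvd hp.out).2 hP₀idx).symm
    obtain ⟨s, ⟨u, hu, rfl⟩, b, hb, hsb⟩ := exists_mul_of_coprime hcop (c : X)
    refine ⟨u, hu, Subtype.ext ?_⟩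
    rw [hρ, hρ, hsb]
    have h1 : b * (v : X) = v * b := (mem_cent_iff.1 hb).symm
    simp only [Subgroup.coe_subtype]
    calc (u : X) * b * (v : X) * ((u : X) * b)⁻¹ = (u : X) * (b * v) * b⁻¹ * (u : X)⁻¹ := by group
      _ = (u : X) * (v * b) * b⁻¹ * (u : X)⁻¹ := by rw [h1]
      _ = _ := by group
  have hsolC : Group.IsSolvable C := star hFT ρ hinj hVq hcopC P P.2 hOE
  -- assemble
  have hsolV : Group.IsSolvable V := by
    haveI : IsMulCommutative V := hVab
    infer_instance
  have hsolQ : Group.IsSolvable (X ⧸ V) := by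
    let f : C →* X ⧸ V := (QuotientGroup.mk' V).comp C.subtype
    have hf : Function.Surjective f := by
      intro x
      obtain ⟨g, rfl⟩ := QuotientGroup.mk'_surjective V x
      have hg : g ∈ V ⊔ C := by rw [hsup]; trivial
      obtain ⟨v, hv, c', hc', rfl⟩ := Subgroup.mem_sup_of_normal_left.1 hg
      refine ⟨⟨c', hc'⟩, ?_⟩
      show (QuotientGroup.mk c' : X ⧸ V) = QuotientGroup.mk (v * c')
      rw [QuotientGroup.eq]
      have h1 : c'⁻¹ * (v * c') = c'⁻¹ * v * c'⁻¹⁻¹ := by group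
      rw [h1]
      exact hVn.conj_mem _ hv _
    exact Group.isSolvable_of_surjective hf
  exact Group.isSolvable_of_ker_le_range V.subtype (QuotientGroup.mk' V) (by
    rw [QuotientGroup.ker_mk', Subgroup.range_subtype])

/-- The statement on `G / O_{q'}(G)`. -/
theorem solvable_quot
    (hFT : ∀ (X : Type u) [Group X] [Finite X], Odd (Nat.card X) → Group.IsSolvable X)
    {G : Type u} [Group G] [Finite G] {p q : ℕ} [hp : Fact p.Prime] [hq : Fact q.Prime] (hpq : p ≠ q)
    (h : ∀ x : G, QE q x → ∃ a : ℕ, cs x = p ^ a) (Q : Sylow q G)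
    (hab : IsMulCommutative (Q : Subgroup G)) (hn : (pCore p G ⊔ (Q : Subgroup G)).Normal) :
    Group.IsSolvable (G ⧸ pPrimeCore q G) := by
  classical
  set K := pPrimeCore q G with hK
  let φ : G →* G ⧸ K := QuotientGroup.mk' K
  have hφs : Function.Surjective φ := QuotientGroup.mk'_surjective K
  have hOK : pCore p G ≤ K := by
    apply le_pPrimeCore inferInstance
    obtain ⟨n, hn'⟩ := IsPGroup.iff_card.1 (pCore_isPGroup (G := G) p)
    rw [hn']
    exact Nat.Coprime.pow_left _ ((Nat.coprime_primes hp.out hq.out).2 hpq)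
  set Q' : Sylow q (G ⧸ K) := Q.mapSurjective hφs with hQ'
  have hQ'coe : (Q' : Subgroup (G ⧸ K)) = (Q : Subgroup G).map φ := rfl
  have hnorm : (Q' : Subgroup (G ⧸ K)).Normal := by
    have h1 : (pCore p G ⊔ (Q : Subgroup G)).map φ = (Q' : Subgroup (G ⧸ K)) := by
      rw [Subgroup.map_sup, hQ'coe]
      have h2 : (pCore p G).map φ = ⊥ := by
        rw [Subgroup.map_eq_bot_iff, QuotientGroup.ker_mk']
        exact hOK
      rw [h2, bot_sup_eq]
    rw [← h1]
    exact Subgroup.Normal.map hn φ hφs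
  have habQ : IsMulCommutative (Q' : Subgroup (G ⧸ K)) := by
    refine ⟨⟨?_⟩⟩
    rintro ⟨_, a, ha, rfl⟩ ⟨_, b, hb, rfl⟩
    apply Subtype.ext
    have h1 : a * b = b * a := congrArg Subtype.val (hab.is_comm.comm ⟨a, ha⟩ ⟨b, hb⟩)
    show φ a * φ b = φ b * φ a
    rw [← map_mul, h1, map_mul]
  refine solvable_of_abelian_sylow hFT hpq (Q' : Subgroup (G ⧸ K)) hnorm habQ Q'.2 Q'.not_dvd_index
    (Cfsg.Agent.Lib.Solvable.PSeries.pPrimeCore_quotient q) ?_
  rintro _ ⟨x, hx, rfl⟩
  obtain ⟨a, ha⟩ := h x (qe_of_mem_sylow Q hx)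
  have h1 : cent x ≤ (cent (φ x)).comap φ := by
    intro u hu
    rw [Subgroup.mem_comap, mem_cent_iff]
    rw [← map_mul, ← map_mul, mem_cent_iff.1 hu]
  have h2 : (cent (φ x)).index ∣ cs x := by
    rw [← Subgroup.index_comap_of_surjective _ hφs]
    exact Subgroup.index_dvd_of_le h1
  rw [ha] at h2
  obtain ⟨b, -, hb⟩ := (Nat.dvd_prime_pow hp.out).1 h2
  exact ⟨b, hb⟩

end Cfsg.Agent.Lib.Baer.Star
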